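import Cfsg.Agent.Lib.Sp4E.Tr
import Cfsg.Agent.Lib.PLocal.NatFacts
import Cfsg.Agent.Lib.D3.Gens
import Cfsg.Agent.Lib.Unitary.PrimeGraph
import Cfsg.Agent.Lib.Spec.PSL2
import Cfsg.Agent.Lib.Sz.Trace
import Cfsg.Agent.Lib.Sz.Instances
import Cfsg.Agent.Lib.CIT.Orders

/-!
# Primitive simple subgroups of `Sp₄(2ⁿ)` are Suzuki groups
-/

set_option autoImplicit false

namespace Cfsg.Lib.Sp4E

open Matrix Cfsg.Lib.Symp Cfsg.Lib.Root Equiv
open scoped MatrixGroups

variable {F : Type*} [Field F] {P : Subgroup (Sp F)}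

/-- The full hypotheses. -/
structure Hz (P : Subgroup (Sp F)) : Prop extends Hy P where
  span : Submodule.span F (Subtype.val '' (P : Set (Sp F))) = ⊤
  sc : ∀ M : Matrix _ _ F, (∀ g ∈ P, M * g.1 = g.1 * M) → ∃ c : F, M = c • 1
  tr : ∀ k : Subfield F, (∀ g ∈ P, g.1.trace ∈ k) → k = ⊤
  noQ : ∀ Q : V F → F, (∀ (c : F) x, Q (c • x) = c ^ 2 * Q x) →
    (∀ x y, Q (x + y) = Q x + Q y + f x y) → ¬ ∀ g ∈ P, ∀ x, Q (ac g x) = Q x

variable [CharP F 2] {y z : P}

theorem Hz.not_fpf (h : Hz P) (hg : Subgroup.closure {y, z} = ⊤) (y3 : y ^ 3 = 1) (z3 : z ^ 3 = 1)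
    (hy : Fpf y.1) (hz : Fpf z.1) : False := by
  let φ : P →* Matrix _ _ F := (Sp F).subtype.comp P.subtype
  have q : ∀ y : P, y ^ 3 = 1 → Fpf y.1 → φ y * φ y = -1 - φ y := fun y y3 hy =>
    ext_of_mulVec_single fun i => by
      rw [← mulVec_mulVec, sub_mulVec, neg_mulVec, one_mulVec, sub_eq_add_neg, add_comm,
        neg_eq_of_add_eq_zero_left (add_self _), neg_eq_of_add_eq_zero_left (add_self _)]
      exact hy.cube (congrArg Subtype.val y3) _
  have i : ∀ y : P, y ^ 3 = 1 → y⁻¹ = y * y := fun y y3 =>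
    inv_eq_of_mul_eq_one_right (by rw [← pow_three, y3])
  let l : Matrix (Fin 2 ⊕ Fin 2) (Fin 2 ⊕ Fin 2) F →ₗ[F] F :=
    entryLinearMap F F (.inr 1) (.inl 0) + entryLinearMap F F (.inr 0) (.inl 1)
  have : Submodule.span F (Subtype.val '' (P : Set (Sp F))) ≤ LinearMap.ker l := by
    refine Submodule.span_le.2 ?_
    rintro _ ⟨g, hP, rfl⟩
    obtain ⟨c, hc⟩ := h.sc _ fun k hk =>
      (Hig.tr_comm φ (q y y3 hy) (q z z3 hz) (i y y3) (i z z3) hg ⟨g, hP⟩ ⟨k, hk⟩).eq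
    have := congrFun (congrFun hc (.inr 1)) (.inl 0)
    change g.1 _ _ + g⁻¹.1 _ _ = _ at this
    rw [inv_apply] at this
    simpa [l] using this
  simpa [l] using this (h.span.ge (Submodule.mem_top (x := single (.inr 1) (.inl 0) 1)))

omit [CharP F 2] in
theorem ac3 {g : Sp F} (h3 : g ^ 3 = 1) (x : V F) : ac g (ac g (ac g x)) = x := by
  rw [← ac_mul, ← ac_mul, ← pow_three', h3, ac_one]

theorem exists_Q {g : Sp F} (h3 : g ^ 3 = 1) : ∃ Q : V F → F, (∀ (c : F) x, Q (c • x) = c ^ 2 * Q x) ∧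
    (∀ x y, Q (x + y) = Q x + Q y + f x y) ∧ ∀ x, Q (ac g x) = Q x := by
  let Q : V F → F := fun x => x (.inl 0) * x (.inr 0) + x (.inl 1) * x (.inr 1)
  have q1 : ∀ (c : F) x, Q (c • x) = c ^ 2 * Q x := fun c x => by simp [Q]; ring
  have q2 : ∀ x y, Q (x + y) = Q x + Q y + f x y := fun x y => by
    simp [Q, bil_apply, J, dotProduct, mulVec, Fintype.sum_sum_type, Fin.sum_univ_two, one_apply]
    grind
  refine ⟨fun x => Q x + Q (ac g x) + Q (ac g (ac g x)), fun c x => by simp only [map_smul, q1]; ring,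
    fun x y => by simp only [map_add, q2, f_ac]; grind, fun x => ?_⟩
  simp only [ac3 h3]; ring

theorem two_le {g : Sp F} (h3 : g ^ 3 = 1) (h : ¬ Fpf g) :
    2 ≤ Module.finrank F (LinearMap.eqLocus (ac g) .id) := by
  by_contra! H
  obtain ⟨v, hv⟩ := finrank_le_one_iff.1 (Nat.le_of_lt_succ H)
  simp only [Fpf, not_forall] at h
  obtain ⟨a, ha, h0⟩ := h
  obtain ⟨r, hr⟩ := exists_one h0
  obtain ⟨c, e1⟩ := hv ⟨a, ha⟩
  obtain ⟨d, e2⟩ := hv ⟨r + ac g r + ac g (ac g r), by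
    change ac g _ = _
    rw [map_add, map_add, ac3 h3, LinearMap.id_apply]; abel⟩
  have : f (d • v.1) (c • v.1) = 0 := by simp [f_self]
  rw [show d • v.1 = _ from congrArg Subtype.val e2, show c • v.1 = _ from congrArg Subtype.val e1] at this
  simp only [LinearMap.map_add₂, f_ac_left, ac_inv_of ha, hr] at this
  grind

variable [Finite F]

theorem Hz.g33 (h : Hz P) (hg : Subgroup.closure {y, z} = ⊤) (y3 : y ^ 3 = 1) (z3 : z ^ 3 = 1) :
    ¬ (Fpf y.1 ↔ Fpf z.1) := fun H => by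
  by_cases hy : Fpf y.1
  · exact h.not_fpf hg y3 z3 hy (H.1 hy)
  have ind : ∀ X : Sp F → Prop, X 1 → (∀ a b, X a → X b → X (a * b)) → X y → X z → ∀ g ∈ P, X g :=
    fun X x1 x2 xy xz g hP => by
      have : (⟨g, hP⟩ : P) ∈ (Subgroup.closure {y, z}).toSubmonoid := hg.ge trivial
      rw [Subgroup.closure_toSubmonoid_of_finite] at this
      exact Submonoid.closure_induction (motive := fun a _ => X a.1) (by rintro _ (rfl | rfl) <;> assumption)
        x1 (fun a b _ _ => x2 _ _) this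
  have y3' : y.1 ^ 3 = 1 := congrArg Subtype.val y3
  have z3' : z.1 ^ 3 = 1 := congrArg Subtype.val z3
  have h1 : LinearMap.eqLocus (ac y.1) .id ⊓ LinearMap.eqLocus (ac z.1) .id = ⊥ :=
    eq_bot_iff.2 fun x hx => tv_eq_one (h.cen _ fun g hP => (comm_of_fix (ind (ac · x = x) (ac_one x)
      (fun a b p q => by rw [ac_mul, q, p]) hx.1 hx.2 g hP)).symm)
  have h2 := Submodule.finrank_sup_add_finrank_inf_eq (LinearMap.eqLocus (ac y.1) .id)
    (LinearMap.eqLocus (ac z.1) .id)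
  have h3 := two_le y3' hy
  have h4 := two_le z3' (mt H.2 hy)
  rw [h1, finrank_bot] at h2
  have h5 := Submodule.eq_top_of_finrank_eq (le_antisymm (Submodule.finrank_le _)
    (le_trans (by simp; omega) h2.ge))
  obtain ⟨Q, q1, q2, q3⟩ := exists_Q y3'
  obtain ⟨R, r1, r2, r3⟩ := exists_Q z3'
  obtain ⟨p, hp⟩ := exists_sq (R := fun x => Q x + R x) (fun x y => by rw [q2, r2]; grind)
    fun c x => by rw [q1, r1]; ring
  obtain ⟨a, ha, b, hb, rfl⟩ := Submodule.mem_sup.1 (h5.ge (Submodule.mem_top (x := p)))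
  have e : ∀ x, Q x + f x a ^ 2 = R x + f x b ^ 2 := fun x => by
    have := hp x; rw [map_add] at this; grind
  refine h.noQ (fun x => Q x + f x a ^ 2) (fun c x => by simp [q1]; ring)
    (fun x y => by simp [q2]; grind) (ind (fun g => ∀ x, Q (ac g x) + f (ac g x) a ^ 2 = _)
      (fun x => by rw [ac_one]) (fun a b p q x => by rw [ac_mul, p, q]) (fun x => ?_) fun x => ?_)
  · rw [q3, f_ac_left, ac_inv_of (y := a) ha]
  · rw [e, e, r3, f_ac_left, ac_inv_of (y := b) hb]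

theorem Hz.no_gen (h : Hz P) {L : Type*} [Group L] (φ : L →* P) (hφ : Function.Surjective φ)
    {y z : L} (hg : Subgroup.closure {y, z} = ⊤) (y3 : y ^ 3 = 1) (hc : IsConj y z) : False := by
  obtain ⟨k, rfl⟩ := isConj_iff.1 hc
  refine h.g33 (y := φ y) (z := φ (k * y * k⁻¹)) ?_ (by rw [← map_pow, y3, map_one])
    (by rw [← map_pow, conj_pow, y3]; simp) ⟨fun H => ?_, fun H => ?_⟩
  · rw [← Set.image_pair, ← MonoidHom.map_closure, hg, Subgroup.map_top_of_surjective _ hφ]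
  · simpa using H.conj (φ k).1
  · simpa [mul_assoc] using H.conj (φ k).1⁻¹

section

variable {K : Type*} [Field K] [Fintype K]

/-- An element of order three. -/
def m3 (K : Type*) [Field K] : SL(2, K) := ⟨!![0, 1; -1, -1], by simp [det_fin_two]⟩

omit [Fintype K] in
theorem m3_cube : m3 K ^ 3 = 1 := by
  rw [pow_three]; apply sl2_ext <;> simp only [Hig.mul_app] <;> simp [m3]

theorem conj_of_tr [CharP K 2] {y : SL(2, K)} (h : Hig.tr y = 1) : IsConj (m3 K) y := by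
  have hd := sl2_det y
  obtain ⟨a, b, e⟩ : ∃ a b : K, y 1 0 * a ^ 2 + a * b + y 0 1 * b ^ 2 = 1 := by
    by_cases h0 : y 1 0 = 0
    · exact ⟨1 + y 0 1, 1, by grind⟩
    · obtain ⟨a, ha⟩ := exists_sqrt (y 1 0)⁻¹
      exact ⟨a, 0, by grind⟩
  unfold Hig.tr at h
  let k : SL(2, K) := ⟨!![a, y 0 0 * a + y 0 1 * b; b, y 1 0 * a + y 1 1 * b], by
    simp [det_fin_two]; grind⟩
  refine isConj_iff.2 ⟨k, mul_inv_eq_of_eq_mul ?_⟩
  apply sl2_ext <;> simp only [Hig.mul_app] <;> simp [m3, k] <;> grind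

theorem Hz.not_l2 (h : Hz P) {n : ℕ} (hn : 2 ≤ n) (hK : Fintype.card K = 2 ^ n) (e : P ≃* PSL(2, K)) :
    False := by
  have : CharP K 2 := charP_of_card_eq_prime_pow hK
  obtain ⟨y, z, hy, hz, hg⟩ := Hig.exists_gen (K := K) (by
    rw [Nat.card_eq_fintype_card, hK]; exact Nat.pow_le_pow_right two_pos hn)
  refine h.no_gen (e.symm.toMonoidHom.comp (QuotientGroup.mk' _))
    (e.symm.surjective.comp (QuotientGroup.mk'_surjective _)) hg ?_ ((conj_of_tr hy).symm.trans (conj_of_tr hz))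
  obtain ⟨k, rfl⟩ := isConj_iff.1 (conj_of_tr hy)
  rw [conj_pow, m3_cube, mul_one, mul_inv_cancel]

theorem Hz.not_l2p (h : Hz P) (hK : (Fintype.card K).Prime) (h3 : 3 < Fintype.card K)
    (e : P ≃* PSL(2, K)) : False := by
  have := Fact.mk hK
  have : CharP K (Fintype.card K) := charP_of_card_eq_prime rfl
  have h4 : (4 : K) ≠ 0 := fun e => by
    have := (CharP.cast_eq_zero_iff K (Fintype.card K) (2 ^ 2)).1 (by simpa using e)
    have := Nat.le_of_dvd two_pos (hK.dvd_of_dvd_pow this)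
    omega
  have hn : ∀ t : K, ∃ n : ℕ, (n : K) = t := fun t => by
    obtain ⟨a, rfl⟩ := (ZMod.ringEquivOfPrime K hK rfl).surjective t
    exact ⟨a.val, by rw [← map_natCast (ZMod.ringEquivOfPrime K hK rfl), ZMod.natCast_zmod_val]⟩
  let y := m3 K
  let z : SL(2, K) := ⟨!![-1, 1; -1, 0], by simp [det_fin_two]⟩
  let k : SL(2, K) := ⟨!![0, -1; 1, 0], by simp [det_fin_two]⟩
  refine h.no_gen (e.symm.toMonoidHom.comp (QuotientGroup.mk' _))
    (e.symm.surjective.comp (QuotientGroup.mk'_surjective _)) (y := y) (z := z) ?_ m3_cube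
    (isConj_iff.2 ⟨k, mul_inv_eq_of_eq_mul ?_⟩)
  · have hy : y ∈ Subgroup.closure {y, z} := Subgroup.subset_closure (by simp)
    have hz : z ∈ Subgroup.closure {y, z} := Subgroup.subset_closure (by simp)
    refine eq_top_iff.2 fun s _ => PLocal.sl2_induction (P := (· ∈ Subgroup.closure {y, z}))
      (fun _ _ => mul_mem) (fun t => ?_) (fun t => ?_) s
    · obtain ⟨n, hn⟩ := hn (t / 4)
      convert pow_mem (mul_mem (mul_mem hz hy) (mul_mem hz hy)) n
      rw [show z * y * (z * y) = xU 4 by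
        apply sl2_ext <;> simp only [Hig.mul_app] <;> simp [y, z, xU, m3] <;> ring, PLocal.xU_pow, hn,
        div_mul_cancel₀ _ h4]
    · obtain ⟨n, hn⟩ := hn (t / -4)
      convert pow_mem (mul_mem (mul_mem hy hz) (mul_mem hy hz)) n
      rw [show y * z * (y * z) = xL (-4) by
        apply sl2_ext <;> simp only [Hig.mul_app] <;> simp [y, z, xL, m3] <;> ring,
        ← div_mul_cancel₀ t (neg_ne_zero.2 h4), ← hn]
      clear hn
      induction n with
      | zero => simp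
      | succ n ih => rw [pow_succ, ← ih, ← xL_add]; push_cast; ring_nf
  · apply sl2_ext <;> simp only [Hig.mul_app] <;> simp [y, z, k, m3]

omit [Finite F] in
theorem not_l34 (hK : Fintype.card K = 4) (e : P ≃* PSL(3, K)) : False := by
  have : CharP K 2 := charP_of_card_eq_prime_pow (f := 2) hK
  let ψ : SL(3, ZMod 2) →* SL(3, K) := SpecialLinearGroup.map (ZMod.castHom (dvd_refl 2) K)
  let a : SL(3, ZMod 2) := ⟨!![0, 0, 1; 1, 0, 1; 0, 1, 0], by decide⟩
  let k : SL(3, ZMod 2) := ⟨!![1, 0, 0; 0, 0, 1; 0, 1, 1], by decide⟩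
  let φ : SL(3, ZMod 2) →* Sp F := P.subtype.comp
    (e.symm.toMonoidHom.comp ((QuotientGroup.mk' _).comp ψ))
  have h1 : φ a = 1 := not_conj_sq (k := φ k) (by rw [← map_pow, show a ^ 7 = 1 by decide, map_one])
    (by rw [← map_pow, ← map_inv, ← map_mul, ← map_mul, mul_inv_eq_of_eq_mul (show k * a = a ^ 2 * k by decide)])
  have h2 : ψ a ∈ Subgroup.center _ := (QuotientGroup.eq_one_iff _).1
    (e.symm.injective ((Subtype.ext h1).trans (map_one _).symm))
  have h3 := congrArg (· 0 0) (Subgroup.mem_center_iff.1 h2 (ψ a⁻¹ * ψ k))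
  rw [← map_mul, ← map_mul, ← map_mul] at h3
  exact absurd ((ZMod.castHom (dvd_refl 2) K).injective h3) (by decide)

theorem Hz.not_a6 (h : Hz P) (e : P ≃* alternatingGroup (Fin 6)) : False := by
  let y : alternatingGroup (Fin 6) := ⟨swap 0 1 * swap 1 2, Perm.mem_alternatingGroup.2 (by decide)⟩
  let z : alternatingGroup (Fin 6) :=
    ⟨swap 0 2 * swap 2 3 * swap 1 4 * swap 4 5, Perm.mem_alternatingGroup.2 (by decide)⟩
  have hg : Subgroup.closure {y, z} = ⊤ := D3.alt_gen (n := 4) fun H ha hb hc i h0 h1 => by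
    have e : ∀ i : Fin 6, i ≠ 0 → i ≠ 1 → swap 0 1 * swap 1 i = D3.wd y.1 z.1 z.1⁻¹ (![[], [], [0],
      [1, 0, 0, 2, 0, 1, 0, 2], [1, 0, 2, 0, 1, 0, 0, 2], [0, 1, 0, 2, 0, 1, 0, 1]] i) := by
      decide +kernel
    exact e i h0 h1 ▸ D3.wd_mem ha hb hc _
  let φ : alternatingGroup (Fin 6) →* Sp F := P.subtype.comp e.symm.toMonoidHom
  have p : ∀ {a : alternatingGroup (Fin 6)} {n : ℕ}, a ^ n = 1 → φ a ^ n = 1 := fun e => by
    rw [← map_pow, e, map_one]
  have key : ∀ y z : alternatingGroup (Fin 6), y ^ 3 = 1 → (y * (z * y * z⁻¹)⁻¹) ^ 5 = 1 →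
      Fpf (φ y) → Fpf (φ (y * (z * y * z⁻¹))) := fun y z a b H => by
    rw [map_mul]
    exact H.mul (by simpa using H.conj (φ z)) (p a) (p (by rw [conj_pow, a]; simp))
      (by rw [← map_inv, ← map_mul]; exact p b)
  have y3 : y ^ 3 = 1 := Subtype.ext (by decide)
  have z3 : z ^ 3 = 1 := Subtype.ext (by decide)
  obtain ⟨c, c5, hc⟩ : ∃ c, orderOf c = 5 ∧ Fpf (φ c) := by
    have := Fact.mk Nat.prime_five
    by_cases hy : Fpf (φ y)
    · exact ⟨_, orderOf_eq_prime (Subtype.ext (by decide +kernel)) (by decide +kernel),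
        key y z y3 (Subtype.ext (by decide +kernel)) hy⟩
    refine ⟨_, orderOf_eq_prime (Subtype.ext (by decide +kernel)) (by decide +kernel),
      key z y z3 (Subtype.ext (by decide +kernel)) (by_contra fun hz => ?_)⟩
    refine h.g33 (y := e.symm y) (z := e.symm z) ?_ (by rw [← map_pow, y3, map_one])
      (by rw [← map_pow, z3, map_one]) (iff_of_false hy hz)
    rw [← Set.image_pair, ← MonoidHom.coe_coe, ← MonoidHom.map_closure, hg,
      Subgroup.map_top_of_surjective _ e.symm.surjective]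
  obtain ⟨m, h0, h1⟩ := h.big
  have : (RingHom.eqLocusField (frobenius F 2) (RingHom.id F)) = ⊤ := h.tr _ fun g hP => by
    obtain ⟨a, rfl⟩ : ∃ a, φ a = g := ⟨e ⟨g, hP⟩, by simp [φ]⟩
    suffices (φ a).1.trace = 0 ∨ (φ a).1.trace = 1 by
      rcases this with e | e <;> simp [e]
    have := Spec.orderOf_mem_sp a
    rw [Spec.sp_alt_six] at this
    have q : ∀ n, orderOf a ∣ n → φ a ^ n = 1 := fun n e => p (orderOf_dvd_iff_pow_eq_one.1 e)
    rcases this with o | o | o | o | o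
    · exact .inl (tr_four (q _ (by simp [o])))
    · exact .inl (tr_four (q _ (by simp [o])))
    · exact tr_three (q _ o.dvd)
    · exact .inl (tr_four (q _ o.dvd))
    have := Fact.mk Nat.prime_five
    obtain ⟨k, hk⟩ := Unitary.exists_zpowers_eq_conj (p := 5) (by
      have := PSL2.card_alternating_fin 6 (by decide)
      rw [show Nat.factorial 6 = 720 by rfl] at this; omega) o c5
    refine tr_five (fun x hx => (hc.conj (φ k)) x ?_) (q _ (Eq.dvd o))
    obtain ⟨n, hn⟩ := mem_powers_iff_mem_zpowers.2 (hk.ge (Subgroup.mem_zpowers _))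
    rw [← map_inv, ← map_mul, ← map_mul, ← hn, map_pow]
    clear hn
    induction n with
    | zero => exact ac_one x
    | succ n ih => rw [pow_succ, ac_mul, hx, ih]
  have : m ^ 2 = m := this.ge (Subfield.mem_top m)
  exact h1 (mul_left_cancel₀ h0 (by rw [← sq, this, mul_one]))

theorem Hz.sz (h : Hz P) {m : ℕ} (hm : 1 ≤ m) (hK : Fintype.card K = 2 ^ (2 * m + 1))
    (e : P ≃* Lie.Sz K (2 ^ (m + 1))) : Nat.card F = 2 ^ (2 * m + 1) := by
  let M := (Sz.lieModel hK).congr e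
  have hK' := Nat.card_eq_fintype_card.trans hK
  have h1 : (RingHom.eqLocusField (iterateFrobenius F 2 (2 * m + 1)) (RingHom.id F)) = ⊤ :=
    h.tr _ fun g hP => by
      change g.1.trace ^ 2 ^ (2 * m + 1) = g.1.trace
      by_cases h4 : (⟨g, hP⟩ : P) ^ 4 = 1
      · simp [tr_four (g := g) (congrArg Subtype.val h4)]
      obtain ⟨k, hk⟩ := isConj_iff.1 (M.isConj_of_tr hm hK' (M.tr_ne_zero hm hK' h4)
        (y := ⟨g, hP⟩ ^ 2 ^ (2 * m + 1)) (by
          unfold Sz.Model.tr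
          rw [map_pow, ← hK, FiniteField.trace_pow_card, FiniteField.pow_card]))
      rw [← tr_pow, show g ^ 2 ^ (2 * m + 1) = _ from (congrArg Subtype.val hk).symm]
      exact tr_conj _ _
  have := Fintype.ofFinite F
  obtain ⟨s, hs, hF⟩ : ∃ s : ℕ, 0 < s ∧ Fintype.card F = 2 ^ s :=
    let ⟨s, _, hF⟩ := FiniteField.card F 2; ⟨s, s.2, hF⟩
  have h2 := (FiniteField.forall_pow_eq_one_iff F (2 ^ (2 * m + 1) - 1)).1 fun x => Units.ext (by
    have : x.1 ^ 2 ^ (2 * m + 1) = x := h1.ge (Subfield.mem_top x.1)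
    rw [Units.val_pow_eq_pow_val, pow_sub₀ _ x.ne_zero Nat.one_le_two_pow, this]; simp)
  rw [hF, ← Nat.gcd_eq_left_iff_dvd, Nat.pow_sub_one_gcd_pow_sub_one] at h2
  replace h2 := Nat.gcd_eq_left_iff_dvd.1 (Nat.pow_right_injective le_rfl
    (Nat.sub_one_cancel (by positivity) (by positivity) h2))
  have h3 := P.card_subgroup_dvd_card
  rw [Nat.card_congr e.toEquiv, CIT.card_sz hK, mul_assoc, card_sp, Nat.card_eq_fintype_card, hF,
    ← pow_mul, ← pow_mul] at h3
  have h4 := (Nat.pow_dvd_pow_iff_le_right one_lt_two).1 (Nat.Coprime.dvd_of_dvd_mul_right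
    (Nat.Coprime.pow_left _ (Nat.Coprime.prod_right fun i _ => Nat.coprime_two_left.2
      (Nat.Even.sub_odd (Nat.one_le_pow _ _ (by positivity)) (by simp [Nat.even_pow]; omega) odd_one)))
    (dvd_of_mul_right_dvd h3))
  obtain ⟨j, hj⟩ := h2
  rw [Fintype.card_fin] at h4
  rw [Nat.card_eq_fintype_card, hF, hj]
  have : j ≤ 2 := by nlinarith
  interval_cases j <;> first | omega | simp

end

theorem Hz.main (h : Hz P) : ∃ (K : Type) (_ : Field K) (_ : Fintype K) (m : ℕ), 1 ≤ m ∧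
    Fintype.card K = 2 ^ (2 * m + 1) ∧ Nat.card F = 2 ^ (2 * m + 1) ∧
    Nonempty (P ≃* Lie.Sz K (2 ^ (m + 1))) := by
  have := h.simple
  have hn : ¬ Group.IsSolvable P := fun e =>
    h.nab (IsSimpleGroup.comm_iff_isSolvable.2 e |> fun h => ⟨⟨h⟩⟩)
  have c := CIT.isCIT_of_pgroup h.cit
  have hO : pCore 2 P = ⊥ := (inferInstance : (pCore 2 P).Normal).eq_bot_or_eq_top.resolve_right
    fun e => hn (Core.isSolvable_top_iff.1 (e ▸ BG.pgroup_sol (Core.pCore_isPGroup 2 P)))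
  rcases c.zas_or_exc.{_, 0} hO (c.rk2 hn) with ⟨-, ⟨K, _, _, n, h0, h1, ⟨e⟩⟩ | ⟨K, _, _, m, h0, h1, ⟨e⟩⟩⟩ |
    ⟨-, ⟨K, _, _, h1 | h1, h0, ⟨e⟩⟩ | ⟨N, hN, h1, -⟩ | ⟨K, _, _, h1, ⟨e⟩⟩⟩
  · exact (h.not_l2 h0 h1 e).elim
  · exact ⟨K, _, _, m, h0, h1, h.sz h0 h1 e, ⟨e⟩⟩
  · exact (h.not_a6 (e.trans (PSL2.equiv_psl_alt_six (Nat.card_eq_fintype_card.trans h1)).some)).elim
  · exact (h.not_l2p h1.1 h0 e).elim
  · rcases hN.eq_bot_or_eq_top with rfl | rfl
    · rw [Subgroup.index_bot] at h1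
      exact (h.nab (isCyclic_of_prime_card h1).isMulCommutative).elim
    · simp at h1
  · exact (not_l34 h1 e).elim

end Cfsg.Lib.Sp4E
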